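import Cfsg.Agent.Lib.Helper68.MG.Defs

/-!
# S3620 (Marggraf), primitive case: the step `Good F → Good (F \ B)` (D + GT + GS of the paper proof)
-/

set_option autoImplicit false

namespace Cfsg.Agent.Lib.Helper26.MG

open Cfsg.Agent.Lib.Helper68.MG

universe u
variable {Ω : Type u}

theorem Fx_anti {G : Subgroup (Equiv.Perm Ω)} {F F' : Set Ω} (h : F' ⊆ F) : Fx G F ≤ Fx G F' :=
  fun _ hg => ⟨hg.1, fun f hf => hg.2 f (h hf)⟩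

theorem stab_mul {a b : Equiv.Perm Ω} {Δ : Set Ω} (ha : a '' Δ = Δ) (hb : b '' Δ = Δ) :
    (a * b) '' Δ = Δ := by
  have h : (a * b) '' Δ = a '' (b '' Δ) := by
    rw [Set.image_image]; rfl
  rw [h, hb, ha]

theorem stab_inv {a : Equiv.Perm Ω} {Δ : Set Ω} (ha : a '' Δ = Δ) : (a⁻¹ : Equiv.Perm Ω) '' Δ = Δ := by
  conv_lhs => rw [← ha]
  rw [Set.image_image]
  simp

theorem image_fix {μ : Equiv.Perm Ω} {A : Set Ω} (hA : ∀ a ∈ A, μ a = a) : μ '' A = A := by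
  ext x
  constructor
  · rintro ⟨a, ha, rfl⟩
    rw [hA a ha]; exact ha
  · intro h
    exact ⟨x, h, hA x h⟩

theorem jor_image {G : Subgroup (Equiv.Perm Ω)} {Δ : Set Ω} (hJ : Jor G Δ) {g : Equiv.Perm Ω} (hg : g ∈ G) :
    Jor G (g '' Δ) := by
  intro x hx y hy
  have hx' : g⁻¹ x ∉ Δ := fun h => hx ⟨g⁻¹ x, h, by simp⟩
  have hy' : g⁻¹ y ∉ Δ := fun h => hy ⟨g⁻¹ y, h, by simp⟩
  obtain ⟨k, hk, hkx⟩ := hJ _ hx' _ hy'
  refine ⟨g * k * g⁻¹, ⟨mul_mem (mul_mem hg hk.1) (inv_mem hg), ?_⟩, ?_⟩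
  · rintro _ ⟨d, hd, rfl⟩
    simp [hk.2 d hd]
  · show g (k (g⁻¹ x)) = y
    rw [hkx]
    simp

/-- translates of the block are equal as soon as they meet -/
theorem blk2 {G : Subgroup (Equiv.Perm Ω)} {F' B : Set Ω}
    (blk : ∀ μ ∈ Fx G F', μ '' B = B ∨ Disjoint (μ '' B) B)
    {μ ν : Equiv.Perm Ω} (hμ : μ ∈ Fx G F') (hν : ν ∈ Fx G F') {z : Ω} (h1 : z ∈ μ '' B) (h2 : z ∈ ν '' B) :
    μ '' B = ν '' B := by
  have key : (ν⁻¹ * μ) '' B = B := by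
    rcases blk _ (mul_mem (inv_mem hν) hμ) with h | h
    · exact h
    · exfalso
      obtain ⟨b, hb, rfl⟩ := h1
      obtain ⟨b', hb', hbb⟩ := h2
      have hmem : b' ∈ (ν⁻¹ * μ) '' B := by
        refine ⟨b, hb, ?_⟩
        rw [Equiv.Perm.mul_apply, ← hbb]
        simp
      exact Set.disjoint_left.1 h hmem hb'
  calc μ '' B = ν '' ((ν⁻¹ * μ) '' B) := by
        rw [Set.image_image]
        apply Set.image_congr
        intro a _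
        simp
    _ = ν '' B := by rw [key]

/-- the dichotomy D -/
theorem dich {G : Subgroup (Equiv.Perm Ω)} {Δ' F' B : Set Ω} (hJ : Jor G Δ') (hΓ : Δ'ᶜ.Nonempty)
    (hBne : B.Nonempty) (hBF : ∀ b ∈ B, b ∉ F') (jor : Jor G F')
    (blk : ∀ μ ∈ Fx G F', μ '' B = B ∨ Disjoint (μ '' B) B) (hF' : F' ⊆ Δ')
    (U : Set Ω) (hU : U.Nonempty) (hU1 : ∀ x ∈ U, x ∉ F' ∧ x ∈ Δ')
    (hno : ∀ μ ∈ Fx G F', ¬ (Δ'ᶜ ∪ U ⊆ μ '' B)) :
    ∃ μ ∈ Fx G F', (∃ x ∈ U, x ∈ μ '' B) ∧ μ '' B ⊆ Δ' := by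
  by_contra hcon
  push Not at hcon
  -- step A
  have hA : ∀ μ ∈ Fx G F', ∀ x ∈ U, x ∈ μ '' B → Δ'ᶜ ⊆ μ '' B := by
    intro μ hμ x hx hxμ
    have h1 := hcon μ hμ ⟨x, hx, hxμ⟩
    obtain ⟨z, hz, hzΔ⟩ := Set.not_subset.1 h1
    intro z' hz'
    obtain ⟨k, hk, hkz⟩ := hJ z hzΔ z' hz'
    have hk' : k ∈ Fx G F' := Fx_anti hF' hk
    have hkx : k x = x := hk.2 x (hU1 x hx).2
    have hkμ : k * μ ∈ Fx G F' := mul_mem hk' hμ
    have hx2 : x ∈ (k * μ) '' B := by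
      obtain ⟨b, hb, hbx⟩ := hxμ
      exact ⟨b, hb, by rw [Equiv.Perm.mul_apply, hbx, hkx]⟩
    have heq := blk2 blk hkμ hμ hx2 hxμ
    rw [← heq]
    obtain ⟨b, hb, hbz⟩ := hz
    exact ⟨b, hb, by rw [Equiv.Perm.mul_apply, hbz, hkz]⟩
  obtain ⟨x₀, hx₀⟩ := hU
  obtain ⟨b₀, hb₀⟩ := hBne
  obtain ⟨γ, hγ⟩ := hΓ
  obtain ⟨μ₀, hμ₀, hμx₀⟩ := jor b₀ (hBF b₀ hb₀) x₀ (hU1 x₀ hx₀).1
  have h0 := hA μ₀ hμ₀ x₀ hx₀ ⟨b₀, hb₀, hμx₀⟩
  apply hno μ₀ hμ₀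
  apply Set.union_subset h0
  intro x hx
  obtain ⟨μ, hμ, hμx⟩ := jor b₀ (hBF b₀ hb₀) x (hU1 x hx).1
  have h1 := hA μ hμ x hx ⟨b₀, hb₀, hμx⟩
  rw [← blk2 blk hμ hμ₀ (h1 hγ) (h0 hγ)]
  exact ⟨b₀, hb₀, hμx⟩

theorem no_cover [Finite Ω] {F B : Set Ω} (lt : B.ncard < Fᶜ.ncard) (μ : Equiv.Perm Ω) : ¬ (Fᶜ ⊆ μ '' B) := by
  intro h
  have h1 := Set.ncard_le_ncard h (Set.toFinite _)
  rw [Set.ncard_image_of_injective _ μ.injective] at h1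
  omega

theorem gt [Finite Ω] (G : Subgroup (Equiv.Perm Ω)) (Δ F B : Set Ω) (hJ : Jor G Δ) (hΓ : Δᶜ.Nonempty)
    (hG : Good G Δ F) (hE : Ext G F B) :
    ∀ g ∈ G, F \ B ⊆ g '' Δ → ∃ ν ∈ Fx G (F \ B), ν '' (g '' Δ) = Δ := by
  intro g hg hF'
  have hΓ' : (g '' Δ)ᶜ.Nonempty := by
    obtain ⟨γ, hγ⟩ := hΓ
    refine ⟨g γ, ?_⟩
    rintro ⟨d, hd, h⟩
    exact hγ (g.injective h ▸ hd)
  have hUne : (g '' Δ \ (F \ B)).Nonempty := by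
    have h1 : (F \ B).ncard < F.ncard := by
      apply Set.ncard_lt_ncard _ (Set.toFinite _)
      refine ⟨Set.sdiff_subset, ?_⟩
      intro h
      obtain ⟨b, hb⟩ := hE.ne
      exact (h (hE.sub hb)).2 hb
    have h2 : F.ncard ≤ Δ.ncard := Set.ncard_le_ncard hG.sub (Set.toFinite _)
    have h3 : (g '' Δ).ncard = Δ.ncard := Set.ncard_image_of_injective _ g.injective
    obtain ⟨e, he1, he2⟩ := Set.exists_mem_notMem_of_ncard_lt_ncard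
      (show (F \ B).ncard < (g '' Δ).ncard by omega) (Set.toFinite _)
    exact ⟨e, he1, he2⟩
  obtain ⟨μ, hμ, -, hμΔ⟩ := dich (jor_image hJ hg) hΓ' hE.ne (fun b hb h => h.2 hb) hE.jor hE.blk hF'
    (g '' Δ \ (F \ B)) hUne (fun x hx => ⟨hx.2, hx.1⟩) (by
      intro μ _ h
      apply no_cover hE.lt μ
      refine Set.Subset.trans ?_ h
      intro x hx
      by_cases hxg : x ∈ g '' Δ
      · exact Or.inr ⟨hxg, fun h => hx h.1⟩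
      · exact Or.inl hxg)
  have hF : F ⊆ (μ⁻¹ * g) '' Δ := by
    intro f hf
    have h1 : μ f ∈ g '' Δ := by
      by_cases hfB : f ∈ B
      · exact hμΔ ⟨f, hfB, rfl⟩
      · rw [hμ.2 f ⟨hf, hfB⟩]; exact hF' ⟨hf, hfB⟩
    obtain ⟨d, hd, hdf⟩ := h1
    exact ⟨d, hd, by rw [Equiv.Perm.mul_apply, hdf]; simp⟩
  obtain ⟨ν, hν, hνΔ⟩ := hG.T (μ⁻¹ * g) (mul_mem (inv_mem hμ.1) hg) hF
  refine ⟨ν * μ⁻¹, mul_mem (Fx_anti Set.sdiff_subset hν) (inv_mem hμ), ?_⟩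
  conv_rhs => rw [← hνΔ]
  simp only [Set.image_image]
  rfl

theorem gs [Finite Ω] (G : Subgroup (Equiv.Perm Ω)) (Δ F B : Set Ω) (hJ : Jor G Δ) (hΓ : Δᶜ.Nonempty)
    (hG : Good G Δ F) (hE : Ext G F B) :
    ∀ x ∈ Δ \ (F \ B), ∀ y ∈ Δ \ (F \ B), ∃ s ∈ Fx G (F \ B), s '' Δ = Δ ∧ s x = y := by
  by_cases hFΔ : F = Δ
  · subst hFΔ
    intro x hx y hy
    obtain ⟨μ, hμ, hμx⟩ := hE.jor x hx.2 y hy.2
    have hxB : x ∈ B := by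
      by_contra h
      exact hx.2 ⟨hx.1, h⟩
    have hyB : y ∈ B := by
      by_contra h
      exact hy.2 ⟨hy.1, h⟩
    have hB : μ '' B = B := by
      rcases hE.blk μ hμ with h | h
      · exact h
      · exact absurd hyB (Set.disjoint_left.1 h ⟨x, hxB, hμx⟩)
    refine ⟨μ, hμ, ?_, hμx⟩
    conv_lhs => rw [← Set.sdiff_union_of_subset hE.sub]
    rw [Set.image_union, hB, image_fix hμ.2, Set.sdiff_union_of_subset hE.sub]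
  · have hUne : (Δ \ F).Nonempty := by
      rw [Set.sdiff_nonempty]
      intro h
      exact hFΔ (Set.Subset.antisymm hG.sub h)
    obtain ⟨μ, hμ, ⟨x₀, hx₀, hx₀μ⟩, hμΔ⟩ := dich hJ hΓ hE.ne (fun b hb h => h.2 hb) hE.jor hE.blk
      (Set.sdiff_subset.trans hG.sub) (Δ \ F) hUne (fun x hx => ⟨fun h => hx.2 h.1, hx.1⟩) (by
        intro μ _ h
        apply no_cover hE.lt μ
        refine Set.Subset.trans ?_ h
        intro x hx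
        by_cases hxg : x ∈ Δ
        · exact Or.inr ⟨hxg, hx⟩
        · exact Or.inl hxg)
    have hdis : Disjoint (μ '' B) B := by
      rcases hE.blk μ hμ with h | h
      · exact absurd (hE.sub (h ▸ hx₀μ)) hx₀.2
      · exact h
    have hP : ∀ b ∈ B, μ b ∈ Δ \ F := by
      intro b hb
      refine ⟨hμΔ ⟨b, hb, rfl⟩, ?_⟩
      intro hF
      by_cases hB : μ b ∈ B
      · exact Set.disjoint_left.1 hdis ⟨b, hb, rfl⟩ hB
      · have h1 := hμ.2 (μ b) ⟨hF, hB⟩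
        have h2 : μ b = b := μ.injective h1
        rw [h2] at hB
        exact hB hb
    have hF : F ⊆ (μ⁻¹ : Equiv.Perm Ω) '' Δ := by
      intro f hf
      have h1 : μ f ∈ Δ := by
        by_cases hfB : f ∈ B
        · exact hμΔ ⟨f, hfB, rfl⟩
        · rw [hμ.2 f ⟨hf, hfB⟩]; exact hG.sub hf
      exact ⟨μ f, h1, by simp⟩
    obtain ⟨ν, hν, hνΔ⟩ := hG.T μ⁻¹ (inv_mem hμ.1) hF
    have hs₀ : ν * μ⁻¹ ∈ Fx G (F \ B) := mul_mem (Fx_anti Set.sdiff_subset hν) (inv_mem hμ)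
    have hs₀Δ : (ν * μ⁻¹) '' Δ = Δ := by
      conv_rhs => rw [← hνΔ]
      rw [Set.image_image]
      rfl
    have hmove : ∀ x ∈ Δ \ (F \ B), ∃ a ∈ Fx G (F \ B), a '' Δ = Δ ∧ a x ∈ Δ \ F := by
      intro x hx
      by_cases hxF : x ∈ F
      · have hxB : x ∈ B := by
          by_contra h
          exact hx.2 ⟨hxF, h⟩
        refine ⟨(ν * μ⁻¹)⁻¹, inv_mem hs₀, stab_inv hs₀Δ, ?_⟩
        have h1 : (ν * μ⁻¹)⁻¹ x = μ x := by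
          rw [Equiv.Perm.inv_eq_iff_eq, Equiv.Perm.mul_apply]
          simp [hν.2 x hxF]
        rw [h1]
        exact hP x hxB
      · exact ⟨1, one_mem _, by simp, ⟨hx.1, hxF⟩⟩
    intro x hx y hy
    obtain ⟨a, ha, haΔ, hax⟩ := hmove x hx
    obtain ⟨c, hc, hcΔ, hcy⟩ := hmove y hy
    obtain ⟨s, hs, hsΔ, hsx⟩ := hG.S _ hax _ hcy
    refine ⟨c⁻¹ * s * a, mul_mem (mul_mem (inv_mem hc) (Fx_anti Set.sdiff_subset hs)) ha,
      stab_mul (stab_mul (stab_inv hcΔ) hsΔ) haΔ, ?_⟩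
    simp [hsx]

theorem good_step [Finite Ω] (G : Subgroup (Equiv.Perm Ω)) (Δ F B : Set Ω) (hJ : Jor G Δ) (hΓ : Δᶜ.Nonempty)
    (hG : Good G Δ F) (hE : Ext G F B) : Good G Δ (F \ B) :=
  ⟨Set.sdiff_subset.trans hG.sub, hE.jor, gt G Δ F B hJ hΓ hG hE, gs G Δ F B hJ hΓ hG hE⟩

end Cfsg.Agent.Lib.Helper26.MG
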